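import Mathlib
import Cfsg.Agent.Lib.helper24.CharKer
import Cfsg.Agent.Lib.helper24.CharLin
import Cfsg.Agent.Lib.helper24.CharComplete

namespace Cfsg.Agent.Lib.lead.AutOrbE

open Cfsg Cfsg.Agent.Lib.helper24

theorem arith_aux (n p c L m k : ℕ) (hp : 2 ≤ p) (hcL : c * L = n) (h1 : L + m * p ^ 2 ≤ n)
    (hk : L + m = k) (h : n < k * p) : c ≤ p := by
  subst hk
  obtain ⟨q, rfl⟩ : ∃ q, p = q + 1 := ⟨p - 1, by omega⟩
  have hq : 1 ≤ q := by omega
  have h3 : n * (q + 1) < (L + m) * (q + 1) * (q + 1) := Nat.mul_lt_mul_of_pos_right h (by omega)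
  have h4 : n * q < L * q * (q + 2) := by nlinarith [h1, h3]
  have h6 : n < L * (q + 2) := by
    by_contra hcon
    push_neg at hcon
    have h5 := Nat.mul_le_mul_right q hcon
    nlinarith
  rw [← hcL] at h6
  have h7 : c < q + 2 := by
    have h8 : L * c < L * (q + 2) := by rw [mul_comm L c]; exact h6
    exact Nat.lt_of_mul_lt_mul_left h8
  omega

theorem comm_card {G : Type*} [Group G] [Finite G] (hna : ¬ IsMulCommutative G)
    (h : Nat.card G < Nat.card (ConjClasses G) * (Nat.card G).minFac) :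
    Nat.card (commutator G) = (Nat.card G).minFac := by
  classical
  haveI := Fintype.ofFinite (IrrCharacter G)
  have hn := sum_sq_charDegree (G := G)
  have hk := card_irr_eq_card_conjClasses (G := G)
  have hL := card_linear_irr (G := G)
  have hcL := Subgroup.card_mul_index (commutator G)
  have hnpos : 0 < Nat.card G := Nat.card_pos
  have hne : commutator G ≠ ⊥ := by
    intro hbot
    apply hna
    have h1 := (commutator_eq_bot_iff_center_eq_top G).mp hbot
    exact ⟨⟨fun a b => Subgroup.mem_center_iff.mp (h1 ▸ Subgroup.mem_top b) a⟩⟩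
  have hc2 : 2 ≤ Nat.card (commutator G) := by
    have h1 : 1 < Nat.card (commutator G) := (Subgroup.one_lt_card_iff_ne_bot _).mpr hne
    omega
  have hcdvd : Nat.card (commutator G) ∣ Nat.card G := Subgroup.card_subgroup_dvd_card _
  have hpc : (Nat.card G).minFac ≤ Nat.card (commutator G) := Nat.minFac_le_of_dvd hc2 hcdvd
  have hn2 : 2 ≤ Nat.card G := le_trans hc2 (Nat.le_of_dvd hnpos hcdvd)
  have hp : (Nat.card G).minFac.Prime := Nat.minFac_prime (by omega)
  have hdeg : ∀ χ : IrrCharacter G, χ.1 1 ≠ 1 → (Nat.card G).minFac ≤ charDegree χ.1 := by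
    intro χ hχ
    obtain ⟨d, hd, hdn⟩ := irr_degree_dvd_card χ
    have hcast := charDegree_cast χ
    have hdeq : charDegree χ.1 = d := by
      have h1 : ((charDegree χ.1 : ℕ) : ℂ) = (d : ℂ) := by rw [hcast, hd]
      exact_mod_cast h1
    rw [hdeq]
    have hd1 : d ≠ 1 := by
      rintro rfl
      apply hχ
      rw [hd]; simp
    have hd0 : d ≠ 0 := by
      rintro rfl
      rw [zero_dvd_iff] at hdn
      omega
    exact Nat.minFac_le_of_dvd (by omega) hdn
  have hlin : ∀ χ : IrrCharacter G, χ.1 1 = 1 → charDegree χ.1 = 1 := by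
    intro χ hχ
    have hcast := charDegree_cast χ
    rw [hχ] at hcast
    exact_mod_cast hcast
  have hsplit : ∑ χ : IrrCharacter G, charDegree χ.1 ^ 2
      = ∑ χ ∈ Finset.univ.filter (fun χ : IrrCharacter G => χ.1 1 = 1), charDegree χ.1 ^ 2
        + ∑ χ ∈ Finset.univ.filter (fun χ : IrrCharacter G => ¬ χ.1 1 = 1),
            charDegree χ.1 ^ 2 :=
    (Finset.sum_filter_add_sum_filter_not Finset.univ _ _).symm
  have hs1 : ∑ χ ∈ Finset.univ.filter (fun χ : IrrCharacter G => χ.1 1 = 1), charDegree χ.1 ^ 2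
      = (Finset.univ.filter (fun χ : IrrCharacter G => χ.1 1 = 1)).card := by
    rw [Finset.card_eq_sum_ones]
    apply Finset.sum_congr rfl
    intro χ hχ
    rw [hlin χ (Finset.mem_filter.mp hχ).2, one_pow]
  have hs2 : (Finset.univ.filter (fun χ : IrrCharacter G => ¬ χ.1 1 = 1)).card
        * (Nat.card G).minFac ^ 2
      ≤ ∑ χ ∈ Finset.univ.filter (fun χ : IrrCharacter G => ¬ χ.1 1 = 1), charDegree χ.1 ^ 2 := by
    have h1 := Finset.card_nsmul_le_sum (Finset.univ.filter (fun χ : IrrCharacter G => ¬ χ.1 1 = 1))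
      (fun χ => charDegree χ.1 ^ 2) ((Nat.card G).minFac ^ 2)
      (fun χ hχ => Nat.pow_le_pow_left (hdeg χ (Finset.mem_filter.mp hχ).2) 2)
    rwa [smul_eq_mul] at h1
  have hcardL : (Finset.univ.filter (fun χ : IrrCharacter G => χ.1 1 = 1)).card
      = (commutator G).index := by
    rw [← hL, Nat.card_eq_fintype_card, Fintype.card_subtype]
  have hcardk : (Finset.univ.filter (fun χ : IrrCharacter G => χ.1 1 = 1)).card
      + (Finset.univ.filter (fun χ : IrrCharacter G => ¬ χ.1 1 = 1)).card
      = Nat.card (ConjClasses G) := by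
    rw [Finset.card_filter_add_card_filter_not, Finset.card_univ, ← hk,
      Nat.card_eq_fintype_card]
  have h1 : (commutator G).index
      + (Finset.univ.filter (fun χ : IrrCharacter G => ¬ χ.1 1 = 1)).card * (Nat.card G).minFac ^ 2
      ≤ Nat.card G := by
    calc (commutator G).index
          + (Finset.univ.filter (fun χ : IrrCharacter G => ¬ χ.1 1 = 1)).card
            * (Nat.card G).minFac ^ 2
        ≤ (commutator G).index
          + ∑ χ ∈ Finset.univ.filter (fun χ : IrrCharacter G => ¬ χ.1 1 = 1),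
              charDegree χ.1 ^ 2 := Nat.add_le_add_left hs2 _
      _ = Nat.card G := by rw [← hcardL, ← hs1, ← hsplit, hn]
  rw [hcardL] at hcardk
  exact le_antisymm (arith_aux _ _ _ _ _ _ hp.two_le hcL h1 hcardk h) hpc

end Cfsg.Agent.Lib.lead.AutOrbE
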